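import Cfsg.Agent.ChevTw.D4Torus.Block

/-!
Elements of ³D₄(q) centralizing the torus of order `(q³ - 1)(q + 1)` (owner: helper86).
-/

set_option autoImplicit false
set_option linter.unusedSimpArgs false

namespace Cfsg.Agent.ChevTw.D4Torus

open Cfsg.Lie Cfsg.Agent.ChevGrp Cfsg.Agent.Chev Cfsg.Agent.ChevTw

/-- The word of the reflection in the highest root. -/
def wTop : List (Fin chevD4.rank) :=
  [⟨1, by decide⟩, ⟨0, by decide⟩, ⟨2, by decide⟩, ⟨3, by decide⟩, ⟨1, by decide⟩, ⟨3, by decide⟩,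
    ⟨2, by decide⟩, ⟨0, by decide⟩, ⟨1, by decide⟩]

/-- Half of it. -/
def wHalf : List (Fin chevD4.rank) := [⟨1, by decide⟩, ⟨0, by decide⟩, ⟨2, by decide⟩, ⟨3, by decide⟩]

theorem wTop_facts : act chevD4 wTop 18 = 18 ∧ act chevD4 wTop 13 = 13 ∧ act chevD4 wTop 12 = 12 ∧
    act chevD4 wTop 1 = 14 ∧ wTop.reverse = wTop ∧ wTop = wHalf ++ [⟨1, by decide⟩] ++ wHalf.reverse ∧
    act chevD4 wHalf (chevD4.simple 1) = 23 := by decide +kernel

theorem simple_cases : ∀ i : Fin chevD4.rank,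
    chevD4.simple i = 18 ∨ chevD4.simple i = 14 ∨ chevD4.simple i = 13 ∨ chevD4.simple i = 12 := by
  decide +kernel

theorem reflect_facts : chevD4.reflectRoot 0 14 = 19 ∧ chevD4.reflectRoot 0 1 = 6 ∧
    chevD4.cartan 0 14 = -1 ∧ chevD4.cartan 0 1 = -1 ∧ chevD4.simple 0 = 18 ∧
    twD4.root 18 = 13 ∧ twD4.root 13 = 12 := by decide +kernel

theorem posList_enum : ∀ r < chevD4.nroots, (r ∈ List.range' 12 12 ↔ chevD4.IsPosRoot r) := by
  decide +kernel

theorem small_closed : ∀ r ∈ [14, 22, 23], ∀ s ∈ [14, 22, 23], s ≠ r →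
    ∀ c ∈ chevD4.commTerms r s, c.1 ∈ [14, 22, 23] := by decide +kernel

theorem small_pos : ∀ r ∈ [14, 22, 23], chevD4.IsPosRoot r := by decide +kernel

variable {K : Type*} [Field K]

theorem chi_sMap (q : ℕ) (s : Kˣ) (r : ℕ) : chiD4 K (sMap q s) r = s ^ expD4 (q : ℤ) r := by
  show s ^ chevD4.cartan 0 r * 1 ^ chevD4.cartan 1 r * (s ^ q) ^ chevD4.cartan 2 r *
    ((s ^ q) ^ q) ^ chevD4.cartan 3 r = _
  rw [one_zpow, mul_one, ← zpow_natCast s q, ← zpow_mul, ← zpow_natCast (s ^ (q : ℤ)) q, ← zpow_mul,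
    ← zpow_mul, ← zpow_add, ← zpow_add]
  congr 1
  simp only [expD4, evQ, eD4]
  ring

theorem sigS_conj (q : ℕ) (s : Kˣ) {r : ℕ} (hr : r < chevD4.nroots) (t : K) :
    sigS q s * xGL chevD4 K r t * (sigS q s)⁻¹ =
      xGL chevD4 K r (((s ^ expD4 (q : ℤ) r : Kˣ) : K) * t) := by
  rw [← chi_sMap]
  exact torD4_conj _ hr t

theorem sigS_mem_Hbar (q : ℕ) (s : Kˣ) : sigS q s ∈ (sysD4 K).Hbar :=
  torD4_mem_Hbar (sMap q s)

theorem sigS_commute_x (q : ℕ) (s : Kˣ) {r : ℕ} (hr : r < chevD4.nroots)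
    (h : s ^ expD4 (q : ℤ) r = 1) (t : K) : Commute (sigS q s) (xGL chevD4 K r t) :=
  torD4_commute _ hr (by rw [chi_sMap, h]) t

/-- A unipotent element commuting with the torus lives on the roots with trivial character. -/
theorem Ubar_support (q : ℕ) {u : GL chevD4.Idx K} (hu : u ∈ (sysD4 K).Ubar)
    (hc : ∀ s : Kˣ, Commute (sigS q s) u) {L : List ℕ} (hLn : L.Nodup)
    (hLp : ∀ r ∈ L, chevD4.IsPosRoot r)
    (hLc : ∀ r ∈ L, ∀ s ∈ L, s ≠ r → ∀ c ∈ chevD4.commTerms r s, c.1 ∈ L)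
    (h : ∀ r, chevD4.IsPosRoot r → (∀ s : Kˣ, s ^ expD4 (q : ℤ) r = 1) → r ∈ L) :
    ∃ t : ℕ → K, u = (sysD4 K).P L t := by
  have hR := rootD4 K
  have hP := hR.posSet_closed
  have hL0 : Enum (posSet chevD4) (List.range' 12 12) := by
    refine ⟨List.nodup_range', fun r => ⟨fun hr => ?_, fun hr => (posList_enum r hr.1).2 hr⟩⟩
    have hlt : r < chevD4.nroots := by
      have h24 : chevD4.nroots = 24 := by decide
      rw [List.mem_range'_1] at hr
      omega
    exact (posList_enum r hlt).1 hr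
  obtain ⟨t, rfl⟩ := (sysD4 K).exists_coef hR hP hL0 hu
  have hA : UClosed chevD4 (lenD4 K) (htHom chevD4) {r | r ∈ L} :=
    hP.subset_closed (fun r hr => hLp r hr) fun r hr s hs hne c hc => hLc r hr s hs hne c hc
  refine (sysD4 K).exists_coef hR hA ⟨hLn, fun r => Iff.rfl⟩ ((sysD4 K).P_mem
    (fun r hr => hP.lt r ((hL0.2 r).1 hr)) fun r hr h0 => ?_)
  refine h r ((hL0.2 r).1 hr) fun s => ?_
  have e := Cfsg.Agent.ChevTwOrd.P_conj (S := sysD4 K) (h := sigS q s)
    (fun r => ((s ^ expD4 (q : ℤ) r : Kˣ) : K)) (L := List.range' 12 12)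
    (fun r hr t => sigS_conj q s (hP.lt r ((hL0.2 r).1 hr)) t) t
  have e2 : sigS q s * (sysD4 K).P (List.range' 12 12) t * (sigS q s)⁻¹ =
      (sysD4 K).P (List.range' 12 12) t := by
    rw [(hc s).eq, mul_inv_cancel_right]
  have e3 := (sysD4 K).coef_unique hR hP hL0 (congrArg (sysD4 K).θ (e.symm.trans e2)) r ((hL0.2 r).1 hr)
  exact Units.ext ((mul_eq_right₀ h0).1 e3)

theorem wTop_rep : ∃ k ∈ (sysD4 K).Hbar, (sysD4 K).nW wTop = k * (sysD4 K).nEl 23 1 := by
  have hR := rootD4 K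
  have hS := rulesD4 K
  obtain ⟨-, -, -, -, -, hw, h23⟩ := wTop_facts
  obtain ⟨a, ha, hwa⟩ := (sysD4 K).conjP_nW hS hR wHalf
  have hp : chevD4.simple 1 < chevD4.nroots := by decide
  have e := Sys.ConjP.nEl hR ha hwa hp 1
  rw [h23, mul_one] at e
  have h23' : (23 : ℕ) < chevD4.nroots := by decide
  have ha0 : a (chevD4.simple 1) ≠ 0 := right_ne_zero_of_mul_eq_one (ha _ hp)
  have hk := (sysD4 K).nW_reverse_mem hS hR wHalf
  have hN := (sysD4 K).Nbar_le_normalizer hS hR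
    ((sysD4 K).nEl_mem_Nbar hS hR h23' (one_ne_zero (α := K)))
  have hk' := (Subgroup.mem_normalizer_iff.1 hN _).1 hk
  refine ⟨(sysD4 K).hEl 23 (a (chevD4.simple 1)) * _,
    mul_mem ((sysD4 K).hEl_mem_Hbar hS hR h23' ha0) hk', ?_⟩
  rw [hw, (sysD4 K).nW_append, (sysD4 K).nW_append, (sysD4 K).nW_singleton]
  calc (sysD4 K).nW wHalf * (sysD4 K).nI ⟨1, by decide⟩ * (sysD4 K).nW wHalf.reverse
      = ((sysD4 K).nW wHalf * (sysD4 K).nEl (chevD4.simple 1) 1 * ((sysD4 K).nW wHalf)⁻¹) *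
          ((sysD4 K).nW wHalf * (sysD4 K).nW wHalf.reverse) := by
        rw [Sys.nI]
        group
    _ = _ := by
        rw [e, (sysD4 K).nEl_eq hR h23']
        group

variable [Fintype K] {q : ℕ} (hq : IsPrimePow q) (hK : Fintype.card K = q ^ 3)

include hK in
theorem exists_gen (hq1 : 1 < q) :
    ∃ s : Kˣ, ∀ a b : ℤ, s ^ a = s ^ b → (q : ℤ) ^ 3 - 1 ∣ a - b := by
  obtain ⟨s, hs⟩ := IsCyclic.exists_ofOrder_eq_natCard (α := Kˣ)
  refine ⟨s, fun a b e => ?_⟩
  have h1 : s ^ (a - b) = 1 := by rw [zpow_sub, e, mul_inv_cancel]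
  have h2 := orderOf_dvd_iff_zpow_eq_one.2 h1
  rw [hs, Nat.card_units, Nat.card_eq_fintype_card, hK] at h2
  rwa [Nat.cast_sub (Nat.one_le_pow _ _ (by omega)), Nat.cast_pow, Nat.cast_one] at h2

/-- The Bruhat parts of a centralizing element centralize. -/
theorem bruhat_parts {g : GL chevD4.Idx K} (hg : g ∈ twistedD4 K q)
    (hc : ∀ s : Kˣ, Commute (sigS q s) g) :
    ∃ (u h v : GL chevD4.Idx K) (w : List (Fin chevD4.rank)),
      u ∈ (sysD4 K).Ubar ∧ h ∈ (sysD4 K).Hbar ∧ v ∈ (sysD4 K).US (invSet chevD4 w) ∧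
      g = u * h * (sysD4 K).nW w * v ∧ (twistD4 hq hK).Comm w ∧ (twistD4 hq hK).sig v = v ∧
      (twistD4 hq hK).sig u = u ∧
      (∀ s : Kˣ, Commute (sigS q s) u ∧ Commute (sigS q s) v ∧
        Commute (sigS q s) (h * (sysD4 K).nW w)) ∧
      ∀ r < chevD4.nroots, ∀ s : Kˣ, s ^ expD4 (q : ℤ) (act chevD4 w r) = s ^ expD4 (q : ℤ) r := by
  set S := sysD4 K
  set T := twistD4 hq hK
  have hS := rulesD4 K
  have hR := rootD4 K
  have hG : g ∈ S.Gbar := (grpD4 hq hK).Tw_le hg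
  obtain ⟨b, hb, w, -, v, hv, rfl⟩ := S.mem_NF hS hR hG
  obtain ⟨hwc, hvf, k, hk, -, hbk⟩ := T.fixed_bruhat hS hR hb hv ((grpD4 hq hK).fixed hg)
  obtain ⟨u, hu, h, hh, rfl⟩ := (S.mem_Bbar hS hR).1 hb
  have huG : u ∈ S.Gbar := S.Bbar_le_Gbar hS hR (S.Ubar_le_Bbar hu)
  have huf : T.sig u = u := by
    rw [T.sig_mul _ huG _ (S.Bbar_le_Gbar hS hR (S.Hbar_le_Bbar hh)), mul_assoc] at hbk
    exact ((S.Bbar_decomp_unique hS hR hu (T.sig_Ubar hu) hh
      (mul_mem (T.sig_Hbar hS hR hh) hk) hbk).1).symm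
  have key : ∀ s : Kˣ, Commute (sigS q s) u ∧ Commute (sigS q s) v ∧
      Commute (sigS q s) h ∧ Commute (sigS q s) (S.nW w) := by
    intro s
    set t := sigS q s
    have ht' : t ∈ S.Hbar := sigS_mem_Hbar q s
    have hcomm := S.Hbar_comm hS hR (glSys_HMul hS hR)
    set k1 := t * S.nW w * t⁻¹ * (S.nW w)⁻¹ with hk1
    have hk1H : k1 ∈ S.Hbar := by
      have := mul_mem ht' (S.nW_conj_Hbar hS hR w (inv_mem ht'))
      simpa [k1, mul_assoc] using this
    have hu' : t * u * t⁻¹ ∈ S.Ubar :=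
      (Subgroup.mem_normalizer_iff.1 (S.Hbar_le_normalizer_Ubar hS hR ht') _).1 hu
    have hv' : t * v * t⁻¹ ∈ S.US (invSet chevD4 w) :=
      (Subgroup.mem_normalizer_iff.1
        (S.Hbar_le_normalizer_US hS hR (fun r hr => hr.1.1) ht') _).1 hv
    have hth : t * h * t⁻¹ = h := by rw [hcomm t ht' h hh, mul_inv_cancel_right]
    have hh' : h * k1 ∈ S.Hbar := mul_mem hh hk1H
    have e : (t * u * t⁻¹) * (h * k1) * S.nW w * (t * v * t⁻¹) = u * h * S.nW w * v := by
      have h1 := mul_inv_eq_iff_eq_mul.2 (hc s).eq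
      refine Eq.trans ?_ h1
      conv_lhs => rw [← hth]
      simp [k1, mul_assoc]
      rfl
    obtain ⟨eb, ev⟩ := (S.bruhat_unique hS hR
      (mul_mem (S.Ubar_le_Bbar hu') (S.Hbar_le_Bbar hh')) hb hv' hv e).2 rfl
    obtain ⟨eu, eh⟩ := S.Bbar_decomp_unique hS hR hu' hu hh' hh eb
    rw [mul_eq_left] at eh
    exact ⟨mul_inv_eq_iff_eq_mul.1 eu, mul_inv_eq_iff_eq_mul.1 ev, hcomm t ht' h hh,
      mul_inv_eq_iff_eq_mul.1 (mul_inv_eq_one.1 eh)⟩
  refine ⟨u, h, v, w, hu, hh, hv, rfl, hwc, hvf, huf,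
    fun s => ⟨(key s).1, (key s).2.1, (key s).2.2.1.mul_right (key s).2.2.2⟩, fun r hr s => ?_⟩
  obtain ⟨a, ha, hwa⟩ := S.conjP_nW hS hR w
  set t := sigS q s
  have hn : Commute t (S.nW w) := (key s).2.2.2
  have h1 : t * (S.nW w * S.x r 1 * (S.nW w)⁻¹) * t⁻¹ =
      S.nW w * (t * S.x r 1 * t⁻¹) * (S.nW w)⁻¹ := by
    have hn' : t * S.nW w = S.nW w * t := hn.eq
    have hn'' : (S.nW w)⁻¹ * t⁻¹ = t⁻¹ * (S.nW w)⁻¹ := by rw [← mul_inv_rev, ← mul_inv_rev, hn']
    calc t * (S.nW w * S.x r 1 * (S.nW w)⁻¹) * t⁻¹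
        = (t * S.nW w) * S.x r 1 * ((S.nW w)⁻¹ * t⁻¹) := by group
      _ = _ := by rw [hn', hn'']; group
  have hlt := hR.act_lt w hr
  rw [hwa r hr, show t * S.x (act chevD4 w r) (a r * 1) * t⁻¹ = _ from sigS_conj q s hlt _,
    show t * S.x r 1 * t⁻¹ = _ from sigS_conj q s hr _] at h1
  have h2 := x_param_inj hlt (h1.trans (hwa r hr _))
  have ha0 : a r ≠ 0 := right_ne_zero_of_mul_eq_one (ha r hr)
  refine Units.ext ?_
  rw [mul_one, mul_one, mul_comm (a r)] at h2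
  exact mul_right_cancel₀ ha0 h2

theorem w_cases {w : List (Fin chevD4.rank)} (hw : (twistD4 hq hK).Comm w)
    (h18 : act chevD4 w 18 = 18) (h19 : act chevD4 w 19 = 19 ∨ act chevD4 w 19 = 6) :
    (act chevD4 w 19 = 19 ∧ ∀ r < chevD4.nroots, act chevD4 w r = r) ∨
      (act chevD4 w 19 = 6 ∧ ∀ r < chevD4.nroots, act chevD4 w r = act chevD4 wTop r) := by
  have hS := rulesD4 K
  have hR := rootD4 K
  obtain ⟨t18, t13, t12, t1, trev, -, -⟩ := wTop_facts
  obtain ⟨r14, r1, c14, c1, s0, o18, o13⟩ := reflect_facts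
  have h13 : act chevD4 w 13 = 13 := by
    have := hw 18 (by decide)
    change act chevD4 w (twD4.root 18) = twD4.root (act chevD4 w 18) at this
    rwa [h18, o18] at this
  have h12 : act chevD4 w 12 = 12 := by
    have := hw 13 (by decide)
    change act chevD4 w (twD4.root 13) = twD4.root (act chevD4 w 13) at this
    rwa [h13, o13] at this
  have vec_add : ∀ r < chevD4.nroots, chevD4.cartan 0 r = -1 →
      vec chevD4 (lenD4 K) (chevD4.reflectRoot 0 r) =
        (1 : ℤ) • vec chevD4 (lenD4 K) r + (1 : ℤ) • vec chevD4 (lenD4 K) 18 := by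
    intro r hr hc
    rw [hR.vec_reflect 0 (by decide) r hr, hc, s0, neg_smul, sub_neg_eq_add, one_smul, one_smul]
  have v19 := vec_add 14 (by decide) c14
  rw [r14] at v19
  have v6 := vec_add 1 (by decide) c1
  rw [r1] at v6
  have v19' := hR.act_lin w (show 14 < chevD4.nroots by decide) (show 18 < chevD4.nroots by decide)
    (show 19 < chevD4.nroots by decide) v19
  rw [h18] at v19'
  have fix : ∀ w' : List (Fin chevD4.rank), act chevD4 w' 18 = 18 → act chevD4 w' 14 = 14 →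
      act chevD4 w' 13 = 13 → act chevD4 w' 12 = 12 → ∀ r < chevD4.nroots, act chevD4 w' r = r := by
    intro w' a b c d
    refine act_eq_self_of_pos (sysD4 K) hS hR fun r hr => pos_of_support hR Set.univ w'
      (fun i _ => ?_) hr ⟨hr.1, fun i _ hi => absurd (Set.mem_univ i) hi⟩
    have hp := hR.simple_pos i
    rcases simple_cases i with e | e | e | e <;> rw [e] at hp ⊢ <;>
      first
        | rwa [a]
        | rwa [b]
        | rwa [c]
        | rwa [d]
  rcases h19 with e | e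
  · refine Or.inl ⟨e, fix w h18 ?_ h13 h12⟩
    rw [e, v19, add_left_inj, one_smul, one_smul] at v19'
    exact (hR.vec_inj _ (hR.act_lt w (by decide)) _ (by decide) v19'.symm)
  · refine Or.inr ⟨e, fun r hr => ?_⟩
    have h14 : act chevD4 w 14 = 1 := by
      rw [e, v6, add_left_inj, one_smul, one_smul] at v19'
      exact (hR.vec_inj _ (hR.act_lt w (by decide)) _ (by decide) v19'.symm)
    have hid := fix (wTop ++ w) (by rw [act_append, h18, t18]) (by rw [act_append, h14, t1])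
      (by rw [act_append, h13, t13]) (by rw [act_append, h12, t12]) r hr
    rw [act_append] at hid
    calc act chevD4 w r = act chevD4 wTop.reverse (act chevD4 wTop (act chevD4 w r)) :=
          (hR.act_reverse_act wTop (hR.act_lt w hr)).symm
      _ = _ := by rw [hid, trev]

theorem invSet_empty {w : List (Fin chevD4.rank)} (hw : ∀ r < chevD4.nroots, act chevD4 w r = r)
    {v : GL chevD4.Idx K} (hv : v ∈ (sysD4 K).US (invSet chevD4 w)) : v = 1 := by
  have h : invSet chevD4 w = ∅ := by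
    rw [Set.eq_empty_iff_forall_notMem]
    intro r hr
    exact (rootD4 K).not_pos_and_neg (by rw [hw r hr.1.1]; exact hr.1) hr.2
  rw [h] at hv
  simpa [Sys.US] using hv

/-- An element `x_ρ(t) h` of ³D₄(q) lies in the Levi subgroup. -/
theorem borel_levi {t : K} {h : GL chevD4.Idx K} (hh : h ∈ (sysD4 K).Hbar)
    (hg : xGL chevD4 K 23 t * h ∈ twistedD4 K q) :
    ∃ (s : Kˣ) (M : GL (Fin 2) (FF hq hK)), xGL chevD4 K 23 t * h = sigS q s * psiF hq hK M := by
  set S := sysD4 K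
  set T := twistD4 hq hK
  have hS := rulesD4 K
  have hR := rootD4 K
  have hf := (grpD4 hq hK).fixed hg
  have hx : ∀ u : K, xGL chevD4 K 23 u ∈ S.Ubar := fun u =>
    S.x_mem_US (T := posSet chevD4) tablesD4.2.2.1 u
  rw [T.sig_mul (xGL chevD4 K 23 t) (S.x_mem_Gbar (show 23 < chevD4.nroots by decide) t) h
    (S.Bbar_le_Gbar hS hR (S.Hbar_le_Bbar hh)), (sig_xtop hq hK t).1] at hf
  obtain ⟨et, eh⟩ := S.Bbar_decomp_unique hS hR (hx _) (hx _) (T.sig_Hbar hS hR hh) hh hf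
  have ht' : t ^ q = t := x_param_inj (by decide) et
  obtain ⟨c, rfl⟩ := exists_torD4 hh
  have hfix : torD4 K (torusMap K pD4 q c) = torD4 K c := by
    rw [← eh]
    exact (sig_tau T hS hR (glSys_HMul hS hR) pD4 pD4_iff q (by have := hq.one_lt; omega)
      (by rw [← frobD4_apply hq hK, map_neg, map_one])
      (fun i t => twistD4_f hq hK (twistD4_f_simple i) t) c).symm
  have hz : c⁻¹ * torusMap K pD4 q c ∈ rootKer chevD4 K := by
    rw [← torD4_eq_one_iff, map_mul, map_inv, inv_mul_eq_one]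
    exact hfix.symm
  obtain ⟨y, hy, hcy⟩ := exists_fixed_adjustD4 hq hK c _ hz (by simp)
  have ey : torD4 K (c * y) = torD4 K c := by rw [map_mul, (torD4_eq_one_iff y).2 hy, mul_one]
  set d := c * y
  obtain ⟨-, d1, d2, d3⟩ := (mem_mkD4_iff d).1 hcy
  set s := d ⟨0, by decide⟩
  have hd : d = sMap q s * mkD4 1 (d ⟨1, by decide⟩) 1 1 := by
    rw [funext_iff, forallD4]
    refine ⟨(mul_one _).symm, (one_mul _).symm, ?_, ?_⟩
    · show _ = s ^ q * 1
      rw [mul_one, d2]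
    · show _ = (s ^ q) ^ q * 1
      rw [mul_one, d2, d3]
  have d1' : ((d ⟨1, by decide⟩ : Kˣ) : K) ^ q = d ⟨1, by decide⟩ := by
    rw [← Units.val_pow_eq_pow_val, d1]
  let tF : FF hq hK := ⟨t, (mem_FF hq hK).2 ht'⟩
  let dF : (FF hq hK)ˣ := Units.mk0 ⟨_, (mem_FF hq hK).2 d1'⟩
    (fun h0 => (d ⟨1, by decide⟩).ne_zero (congrArg Subtype.val h0))
  refine ⟨s, Matrix.SpecialLinearGroup.toGL (RankOne.upper tF) * dg dF, ?_⟩
  have e1 : psiF hq hK (Matrix.SpecialLinearGroup.toGL (RankOne.upper tF)) = xGL chevD4 K 23 t := by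
    have : incl hq hK (Matrix.SpecialLinearGroup.toGL (RankOne.upper tF)) =
        Matrix.SpecialLinearGroup.toGL (RankOne.upper t) := by
      refine Units.ext ?_
      ext i j
      rw [incl_val]
      fin_cases i <;> fin_cases j <;> rfl
    rw [psiF, MonoidHom.comp_apply, this, psi_sl, phi_upper]
  have e2 : psiF hq hK (dg dF) = hzero (d ⟨1, by decide⟩) := by
    have : (incl hq hK (dg dF)).1 = !![((d ⟨1, by decide⟩ : Kˣ) : K), 0; 0, ((1 : Kˣ) : K)] := by
      ext i j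
      rw [incl_val]
      fin_cases i <;> fin_cases j <;> rfl
    rw [psiF, MonoidHom.comp_apply, psi_diag this, inv_one, mul_one]
    rfl
  rw [map_mul, e1, e2, ← ey]
  conv_lhs => rw [hd, map_mul]
  have hcm : Commute (sigS q s) (xGL chevD4 K 23 t) := by
    rw [← phi_upper]
    exact torD4_commute_phi _ rfl _
  rw [← mul_assoc, ← mul_assoc]
  show xGL chevD4 K 23 t * sigS q s * hzero _ = _
  rw [← hcm.eq]

/-- An element supported on the highest root and the torus lies in the Levi subgroup. -/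
theorem top_levi {w : List (Fin chevD4.rank)} (hw : (twistD4 hq hK).Comm w)
    (h18 : act chevD4 w 18 = 18) (h19 : act chevD4 w 19 = 19 ∨ act chevD4 w 19 = 6)
    {g h v : GL chevD4.Idx K} {a b : K} (hg : g ∈ twistedD4 K q) (hh : h ∈ (sysD4 K).Hbar)
    (hv : v ∈ (sysD4 K).US (invSet chevD4 w)) (hvb : v = xGL chevD4 K 23 b)
    (hvf : (twistD4 hq hK).sig v = v)
    (e : g = xGL chevD4 K 23 a * h * (sysD4 K).nW w * v) :
    ∃ (s : Kˣ) (M : GL (Fin 2) (FF hq hK)), g = sigS q s * psiF hq hK M := by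
  set S := sysD4 K
  have hS := rulesD4 K
  have hR := rootD4 K
  rcases w_cases hq hK hw h18 h19 with ⟨-, hid⟩ | ⟨-, htop⟩
  · have hn : S.nW w ∈ S.Hbar := S.nW_mem_Hbar_of_act hS hR fun r hr => by rw [hid r hr.1]; exact hr
    rw [invSet_empty hid hv, mul_one, mul_assoc] at e
    obtain ⟨s, M, e'⟩ := borel_levi hq hK (mul_mem hh hn) (e ▸ hg)
    exact ⟨s, M, e.trans e'⟩
  · obtain ⟨k, hk, ek⟩ := S.nW_congr hS hR htop
    obtain ⟨k', hk', ek'⟩ := wTop_rep (K := K)
    let W : Matrix.SpecialLinearGroup (Fin 2) (FF hq hK) := RankOne.weyl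
    have hn1 : psiF hq hK (Matrix.SpecialLinearGroup.toGL W) = S.nEl 23 1 := by
      have : incl hq hK (Matrix.SpecialLinearGroup.toGL W) =
          Matrix.SpecialLinearGroup.toGL (RankOne.weyl : Matrix.SpecialLinearGroup (Fin 2) K) := by
        refine Units.ext ?_
        ext i j
        rw [incl_val]
        fin_cases i <;> fin_cases j <;> rfl
      rw [psiF, MonoidHom.comp_apply, this, psi_sl, phi_weyl]
    have hb : b ^ q = b := by
      rw [hvb, (sig_xtop hq hK b).1] at hvf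
      exact x_param_inj (by decide) hvf
    let bF : FF hq hK := ⟨b, (mem_FF hq hK).2 hb⟩
    have hb1 : psiF hq hK (Matrix.SpecialLinearGroup.toGL (RankOne.upper bF)) = v := by
      have : incl hq hK (Matrix.SpecialLinearGroup.toGL (RankOne.upper bF)) =
          Matrix.SpecialLinearGroup.toGL (RankOne.upper b) := by
        refine Units.ext ?_
        ext i j
        rw [incl_val]
        fin_cases i <;> fin_cases j <;> rfl
      rw [psiF, MonoidHom.comp_apply, this, psi_sl, phi_upper, hvb]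
    have e0 : g = xGL chevD4 K 23 a * (h * (k * k')) * (S.nEl 23 1 * v) := by
      rw [e, ek, ek']
      simp only [mul_assoc]
      rfl
    set P := Matrix.SpecialLinearGroup.toGL W * Matrix.SpecialLinearGroup.toGL (RankOne.upper bF)
    have hP : psiF hq hK P = S.nEl 23 1 * v := by rw [map_mul, hn1, hb1]
    rw [← hP] at e0
    have hmem : xGL chevD4 K 23 a * (h * (k * k')) ∈ twistedD4 K q := by
      have := mul_mem hg (inv_mem (psiF_mem hq hK P))
      rw [e0, mul_inv_cancel_right] at this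
      exact this
    obtain ⟨s, M, e'⟩ := borel_levi hq hK (mul_mem hh (mul_mem hk hk')) hmem
    exact ⟨s, M * P, by rw [e0, e', map_mul (psiF hq hK) M P, mul_assoc]⟩

end Cfsg.Agent.ChevTw.D4Torus
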