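import Cfsg.Agent.ChevTw.TwD4

/-!
Weights of the one-dimensional torus of ³D₄(q) on the roots (owner: helper86).
-/

set_option autoImplicit false

namespace Cfsg.Agent.ChevTw.D4Torus

open Cfsg.Lie Cfsg.Agent.ChevGrp

/-- The three exponents of a root. -/
def eD4 (r : ℕ) : ℤ × ℤ × ℤ := (chevD4.cartan 0 r, chevD4.cartan 2 r, chevD4.cartan 3 r)

/-- The value of a triple at `q`. -/
def evQ (q : ℤ) (t : ℤ × ℤ × ℤ) : ℤ := t.1 + t.2.1 * q + t.2.2 * q ^ 2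

/-- The exponent of the torus on a root. -/
def expD4 (q : ℤ) (r : ℕ) : ℤ := evQ q (eD4 r)

/-- The triples which have to be recognised. -/
def targets : List (ℤ × ℤ × ℤ) := [(0, 0, 0), (2, 0, 0), (1, -1, -1)]

theorem eD4_bound : ∀ r < chevD4.nroots, ∀ t ∈ targets,
    -4 ≤ (eD4 r).1 - t.1 ∧ (eD4 r).1 - t.1 ≤ 4 ∧ -4 ≤ (eD4 r).2.1 - t.2.1 ∧ (eD4 r).2.1 - t.2.1 ≤ 4 ∧
      -4 ≤ (eD4 r).2.2 - t.2.2 ∧ (eD4 r).2.2 - t.2.2 ≤ 4 := by decide +kernel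

theorem small_q : ∀ q ∈ [(3 : ℤ), 4, 5], ∀ r < chevD4.nroots, ∀ t ∈ targets,
    q ^ 3 - 1 ∣ expD4 q r - evQ q t → eD4 r = t := by decide +kernel

theorem digit_eq {q a m : ℤ} (hq : 6 ≤ q) (ha : -4 ≤ a) (ha' : a ≤ 4) (h : a + q * m = 0) :
    a = 0 ∧ m = 0 := by
  have hm : m = 0 := by
    rcases lt_trichotomy m 0 with h1 | h1 | h1
    · nlinarith
    · exact h1
    · nlinarith
  refine ⟨?_, hm⟩
  rwa [hm, mul_zero, add_zero] at h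

theorem cong_eq {q : ℤ} (hq : 3 ≤ q) {r : ℕ} (hr : r < chevD4.nroots) {t : ℤ × ℤ × ℤ} (ht' : t ∈ targets)
    (h : q ^ 3 - 1 ∣ expD4 q r - evQ q t) : eD4 r = t := by
  by_cases hq6 : q < 6
  · refine small_q q ?_ r hr t ht' h
    simp only [List.mem_cons, List.not_mem_nil, or_false]
    omega
  rw [not_lt] at hq6
  obtain ⟨a1, a2, b1, b2, c1, c2⟩ := eD4_bound r hr t ht'
  have hD : expD4 q r - evQ q t = ((eD4 r).1 - t.1) +
      q * (((eD4 r).2.1 - t.2.1) + q * ((eD4 r).2.2 - t.2.2)) := by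
    simp only [expD4, evQ]; ring
  set a := (eD4 r).1 - t.1 with ha
  set b := (eD4 r).2.1 - t.2.1 with hb
  set c := (eD4 r).2.2 - t.2.2 with hc
  have h0 : expD4 q r - evQ q t = 0 := by
    refine Int.eq_zero_of_abs_lt_dvd h (abs_lt.2 ⟨?_, ?_⟩) <;> rw [hD] <;>
      nlinarith [mul_le_mul_of_nonneg_left c2 (by positivity : (0 : ℤ) ≤ q ^ 2),
        mul_le_mul_of_nonneg_left c1 (by positivity : (0 : ℤ) ≤ q ^ 2),
        mul_le_mul_of_nonneg_left b2 (by omega : (0 : ℤ) ≤ q),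
        mul_le_mul_of_nonneg_left b1 (by omega : (0 : ℤ) ≤ q)]
  rw [hD] at h0
  obtain ⟨za, h1⟩ := digit_eq hq6 a1 a2 h0
  obtain ⟨zb, zc⟩ := digit_eq hq6 b1 b2 h1
  refine Prod.ext (by omega) (Prod.ext (by omega) (by omega))

theorem eD4_unique : (∀ r < chevD4.nroots, (eD4 r = (2, 0, 0) → r = 18) ∧
      (eD4 r = (1, -1, -1) → r = 19 ∨ r = 6) ∧ (chevD4.IsPosRoot r → eD4 r = (0, 0, 0) → r = 23)) ∧
    eD4 18 = (2, 0, 0) ∧ eD4 19 = (1, -1, -1) := by decide +kernel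

theorem two_classes : ∀ r < chevD4.nroots,
    ((7 : ℤ) ∣ expD4 2 r - expD4 2 18 ↔ r = 18 ∨ r = 19 ∨ r = 6) ∧
      (chevD4.IsPosRoot r → (7 : ℤ) ∣ expD4 2 r → r = 14 ∨ r = 22 ∨ r = 23) ∧
      ((7 : ℤ) ∣ expD4 2 r - expD4 2 19 ↔ r = 18 ∨ r = 19 ∨ r = 6) ∧
      ((7 : ℤ) ∣ expD4 2 r - expD4 2 6 ↔ r = 18 ∨ r = 19 ∨ r = 6) := by decide +kernel

end Cfsg.Agent.ChevTw.D4Torus
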