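import Cfsg.Agent.ChevTw.D4Torus.Torus
import Cfsg.Agent.ChevTw.D4Torus.Weights

/-!
The block of a weight space of the one-dimensional torus of ³D₄(2): a natural module for the centralizer
(owner: helper86).
-/

set_option autoImplicit false
set_option linter.unusedSimpArgs false

namespace Cfsg.Agent.ChevTw.D4Torus

open Cfsg.Lie Cfsg.Agent.ChevGrp Cfsg.Agent.Chev Cfsg.Agent.ChevTw

/-- The three roots of the weight space. -/
def rt : Fin 3 → ℕ := ![19, 18, 6]

theorem rt_lt : ∀ i, rt i < chevD4.nroots := by decide +kernel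

theorem rt_inj : Function.Injective rt := by decide +kernel

theorem exists_rt : ∀ r < chevD4.nroots, r = 18 ∨ r = 19 ∨ r = 6 → ∃ i, rt i = r := by decide +kernel

theorem chain14 : ∀ a b : Fin 3, chevD4.chainCoeff 14 (rt b) (rt a) =
    if a = 0 ∧ b = 1 then [(1, 1)] else [] := by decide +kernel

theorem chain22 : ∀ a b : Fin 3, chevD4.chainCoeff 22 (rt b) (rt a) =
    if a = 1 ∧ b = 2 then [(1, -1)] else [] := by decide +kernel

theorem chain23 : ∀ a b : Fin 3, chevD4.chainCoeff 23 (rt b) (rt a) =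
    if a = 0 ∧ b = 2 then [(1, -1)] else [] := by decide +kernel

theorem chain0 : ∀ a b : Fin 3, chevD4.chainCoeff 0 (rt b) (rt a) =
    if a = 2 ∧ b = 0 then [(1, -1)] else [] := by decide +kernel

theorem rt_ne : ∀ r ∈ [14, 22, 23, 0], ∀ b : Fin 3, r < chevD4.nroots ∧ rt b ≠ r ∧
    rt b ≠ chevD4.negIdx.getD r 0 := by decide +kernel

variable {K : Type*} [Field K]

/-- The coordinates of the weight space. -/
def idxB (i : Fin 3) : chevD4.Idx := Sum.inr ⟨rt i, rt_lt i⟩

theorem idxB_inj : Function.Injective idxB := fun _ _ e =>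
  rt_inj (congrArg Fin.val (Sum.inr.inj e))

/-- The block. -/
def blk (g : GL chevD4.Idx K) : Matrix (Fin 3) (Fin 3) K :=
  (g : Matrix chevD4.Idx chevD4.Idx K).submatrix idxB idxB

theorem blk_one : blk (1 : GL chevD4.Idx K) = 1 := by
  rw [blk, Units.val_one, Matrix.submatrix_one _ idxB_inj]

theorem blk_x {r : ℕ} (hr : r ∈ [14, 22, 23, 0]) (t : K) :
    blk (xGL chevD4 K r t) = Matrix.of fun a b => (if a = b then (1 : K) else 0) +
      ((chevD4.chainCoeff r (rt b) (rt a)).map fun km => ((km.2 : ℤ) : K) * t ^ km.1).sum := by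
  ext a b
  obtain ⟨hlt, h1, h2⟩ := rt_ne r hr b
  simp only [blk, Matrix.submatrix_apply, val_xGL (rulesD4 K), ChevalleyDatum.x, dif_pos hlt,
    ChevalleyDatum.xMat, Matrix.of_apply, idxB]
  rw [if_neg (fun e => h1 (congrArg Fin.val e)), if_neg h2]
  congr 1
  simp only [Fin.ext_iff]
  refine if_congr ?_ rfl rfl
  exact ⟨fun e => Fin.ext_iff.1 (rt_inj e), fun e => congrArg rt (Fin.ext e)⟩

theorem blk_x14 (t : K) : blk (xGL chevD4 K 14 t) = !![1, t, 0; 0, 1, 0; 0, 0, 1] := by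
  rw [blk_x (by simp)]
  ext a b
  rw [Matrix.of_apply, chain14]
  fin_cases a <;> fin_cases b <;> simp

theorem blk_x22 (t : K) : blk (xGL chevD4 K 22 t) = !![1, 0, 0; 0, 1, -t; 0, 0, 1] := by
  rw [blk_x (by simp)]
  ext a b
  rw [Matrix.of_apply, chain22]
  fin_cases a <;> fin_cases b <;> simp

theorem blk_x23 (t : K) : blk (xGL chevD4 K 23 t) = !![1, 0, -t; 0, 1, 0; 0, 0, 1] := by
  rw [blk_x (by simp)]
  ext a b
  rw [Matrix.of_apply, chain23]
  fin_cases a <;> fin_cases b <;> simp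

theorem blk_x0 (t : K) : blk (xGL chevD4 K 0 t) = !![1, 0, 0; 0, 1, 0; -t, 0, 1] := by
  rw [blk_x (by simp)]
  ext a b
  rw [Matrix.of_apply, chain0]
  fin_cases a <;> fin_cases b <;> simp

/-- The algebra of a monomial matrix between two unitriangular ones which lies in a Levi subgroup. -/
theorem levi_cases {A : Matrix (Fin 3) (Fin 3) K} {u0 u1 u2 v0 v1 v2 : K} {m : Fin 3 → K}
    (hm : ∀ j, m j ≠ 0) {p : Fin 3 → Fin 3} (hp : Function.Injective p)
    (hA : A = !![1, u0, u2; 0, 1, u1; 0, 0, 1] * (Matrix.of fun i j => if i = p j then m j else 0) *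
      !![1, v0, v2; 0, 1, v1; 0, 0, 1])
    (h01 : A 0 1 = 0) (h10 : A 1 0 = 0) (h12 : A 1 2 = 0) (h21 : A 2 1 = 0)
    (hid : p 0 = 0 → p 1 = 1 → v0 = 0 ∧ v1 = 0) :
    p 1 = 1 ∧ u0 = 0 ∧ u1 = 0 ∧ v0 = 0 ∧ v1 = 0 := by
  have i01 : p 0 ≠ p 1 := hp.ne (by decide)
  have i02 : p 0 ≠ p 2 := hp.ne (by decide)
  have i12 : p 1 ≠ p 2 := hp.ne (by decide)
  subst hA
  simp only [Matrix.mul_apply, Fin.sum_univ_three, Matrix.of_apply, Matrix.cons_val', Matrix.cons_val_zero,
    Matrix.cons_val_one, Matrix.cons_val, Matrix.empty_val', Matrix.cons_val_fin_one] at h01 h10 h12 h21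
  have m0 := hm 0
  have m1 := hm 1
  have m2 := hm 2
  generalize p 0 = a, p 1 = b, p 2 = c at *
  fin_cases a <;> fin_cases b <;> fin_cases c <;>
    simp_all

end Cfsg.Agent.ChevTw.D4Torus
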